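import Mathlib
import Cfsg.Agent.Lib.Helper70.S3701.Defs

set_option autoImplicit false

/-!
# S3701: basic lemmas on the data `T = ⟨a⟩ × ⟨b⟩ × ⟨c⟩`, `H = T ⋊ ⟨w, w'⟩`
-/

universe u

namespace Cfsg.Agent.Lib.Helper62.S3701

open Cfsg.Agent.Lib.Helper70.S3701

section generic

variable {G : Type u} [Group G]

/-- products of powers of three pairwise commuting elements -/
theorem abc_mul {a b c : G} (hab : a * b = b * a) (hac : a * c = c * a) (hbc : b * c = c * b)
    (i j k i' j' k' : ℕ) :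
    a ^ i * b ^ j * c ^ k * (a ^ i' * b ^ j' * c ^ k') =
      a ^ (i + i') * b ^ (j + j') * c ^ (k + k') := by
  have cab : Commute a b := hab
  have cac : Commute a c := hac
  have cbc : Commute b c := hbc
  have h1 : Commute (b ^ j * c ^ k) (a ^ i') :=
    (cab.symm.pow_pow j i').mul_left (cac.symm.pow_pow k i')
  have h2 : Commute (c ^ k) (b ^ j') := cbc.symm.pow_pow k j'
  calc a ^ i * b ^ j * c ^ k * (a ^ i' * b ^ j' * c ^ k')
      = a ^ i * ((b ^ j * c ^ k) * a ^ i') * (b ^ j' * c ^ k') := by simp only [mul_assoc]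
    _ = a ^ i * (a ^ i' * (b ^ j * c ^ k)) * (b ^ j' * c ^ k') := by rw [h1.eq]
    _ = a ^ i * a ^ i' * b ^ j * (c ^ k * b ^ j') * c ^ k' := by simp only [mul_assoc]
    _ = a ^ i * a ^ i' * b ^ j * (b ^ j' * c ^ k) * c ^ k' := by rw [h2.eq]
    _ = a ^ (i + i') * b ^ (j + j') * c ^ (k + k') := by
      rw [pow_add, pow_add, pow_add]
      simp only [mul_assoc]

/-- products of powers of two commuting elements -/
theorem uv_mul {u v : G} (huv : u * v = v * u) (e f e' f' : ℕ) :
    u ^ e * v ^ f * (u ^ e' * v ^ f') = u ^ (e + e') * v ^ (f + f') := by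
  have h := abc_mul huv (show u * (1 : G) = 1 * u by rw [mul_one, one_mul])
    (show v * (1 : G) = 1 * v by rw [mul_one, one_mul]) e f 0 e' f' 0
  simpa using h

/-- conjugates of a product of three powers -/
theorem conj_abc (g a b c : G) (i j k : ℕ) :
    g * (a ^ i * b ^ j * c ^ k) * g⁻¹ =
      (g * a * g⁻¹) ^ i * (g * b * g⁻¹) ^ j * (g * c * g⁻¹) ^ k := by
  rw [conj_pow, conj_pow, conj_pow]
  simp only [mul_assoc, inv_mul_cancel_left]

/-- the inverse of an element of order `3` -/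
theorem inv_eq_sq_of_cube {a : G} (ha : a ^ 3 = 1) : a⁻¹ = a ^ 2 := by
  apply inv_eq_of_mul_eq_one_right
  rw [← pow_succ', ha]

/-- an element of order `3` is not its own inverse unless it is trivial -/
theorem ne_inv_of_cube {a : G} (ha : a ^ 3 = 1) (ha1 : a ≠ 1) : a⁻¹ ≠ a := by
  intro h
  apply ha1
  have h2 : a * a = 1 := by
    nth_rewrite 1 [← h]
    exact inv_mul_cancel a
  have h3 : a ^ 3 = a := by rw [pow_succ, pow_two, h2, one_mul]
  rw [ha] at h3
  exact h3.symm

/-- `(a ^ 3) ^ i = 1` in the form `a ^ (i + i + i) = 1` -/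
theorem pow_three_mul_eq_one {a : G} (ha : a ^ 3 = 1) (i : ℕ) : a ^ (i + i + i) = 1 := by
  have h : i + i + i = 3 * i := by ring
  rw [h, pow_mul, ha, one_pow]

/-- in a finite group, an element conjugating a subgroup into itself normalizes it -/
theorem mem_normalizer_of_conj_mem [Finite G] (T : Subgroup G) (g : G)
    (h : ∀ s ∈ T, g * s * g⁻¹ ∈ T) : g ∈ Subgroup.normalizer (T : Set G) := by
  rw [Subgroup.mem_normalizer_iff]
  intro n
  refine ⟨h n, fun hn => ?_⟩
  have hinj : Function.Injective (fun s : ↥T => (⟨g * s * g⁻¹, h s s.2⟩ : ↥T)) := by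
    intro s1 s2 h12
    have h3 : g * (s1 : G) * g⁻¹ = g * (s2 : G) * g⁻¹ := congrArg Subtype.val h12
    apply Subtype.ext
    exact mul_left_cancel (mul_right_cancel h3)
  obtain ⟨s, hs⟩ := Finite.surjective_of_injective hinj ⟨g * n * g⁻¹, hn⟩
  have h2 : g * (s : G) * g⁻¹ = g * n * g⁻¹ := congrArg Subtype.val hs
  have h3 : (s : G) = n := mul_left_cancel (mul_right_cancel h2)
  rw [← h3]
  exact s.2

end generic

section data

variable {G : Type u} [Group G] {H T : Subgroup G} {a b c w w' : G}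

/-- `T` is abelian -/
theorem data_T_comm (D : Data H T a b c w w') {s s' : G} (hs : s ∈ T) (hs' : s' ∈ T) :
    s * s' = s' * s := by
  obtain ⟨i, j, k, rfl⟩ := D.T_eq s hs
  obtain ⟨i', j', k', rfl⟩ := D.T_eq s' hs'
  rw [abc_mul D.ab D.ac D.bc, abc_mul D.ab D.ac D.bc, add_comm i, add_comm j, add_comm k]

/-- `T` has exponent `3` -/
theorem data_T_cube (D : Data H T a b c w w') {s : G} (hs : s ∈ T) : s ^ 3 = 1 := by
  obtain ⟨i, j, k, rfl⟩ := D.T_eq s hs
  rw [pow_succ, pow_two, abc_mul D.ab D.ac D.bc, abc_mul D.ab D.ac D.bc,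
    pow_three_mul_eq_one D.a3, pow_three_mul_eq_one D.b3, pow_three_mul_eq_one D.c3,
    one_mul, one_mul]

/-- `T` is normal in `H` -/
theorem data_conj_mem (D : Data H T a b c w w') {h s : G} (hh : h ∈ H) (hs : s ∈ T) :
    h * s * h⁻¹ ∈ T := by
  have h1 : h ∈ Subgroup.normalizer (T : Set G) := by
    rw [D.hN]
    exact hh
  exact (Subgroup.mem_normalizer_iff.mp h1 s).mp hs

/-- the complement `⟨w, w'⟩` has exponent `2` -/
theorem data_ww_sq (D : Data H T a b c w w') (e f : ℕ) :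
    w ^ e * w' ^ f * (w ^ e * w' ^ f) = 1 := by
  rw [uv_mul D.ww']
  have h1 : w ^ (e + e) = 1 := by
    rw [← two_mul, pow_mul, pow_two, D.w2, one_pow]
  have h2 : w' ^ (f + f) = 1 := by
    rw [← two_mul, pow_mul, pow_two, D.w'2, one_pow]
  rw [h1, h2, one_mul]

/-- the square of an element of `H` lies in `T` -/
theorem data_sq_mem (D : Data H T a b c w w') {h : G} (hh : h ∈ H) : h * h ∈ T := by
  obtain ⟨s, hs, e, f, rfl⟩ := D.H_eq h hh
  obtain ⟨y, hy⟩ : ∃ y, y = w ^ e * w' ^ f := ⟨_, rfl⟩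
  have hyH : y ∈ H := by
    rw [hy]
    exact H.mul_mem (H.pow_mem D.hwH e) (H.pow_mem D.hw'H f)
  have hy2 : y * y = 1 := by
    rw [hy]
    exact data_ww_sq D e f
  have h0 : s * w ^ e * w' ^ f = s * y := by rw [hy, mul_assoc]
  rw [h0]
  have h1 : s * y * (s * y) = s * (y * s * y⁻¹) := by
    calc s * y * (s * y) = s * (y * s * y⁻¹) * (y * y) := by
          simp only [mul_assoc, inv_mul_cancel_left]
      _ = s * (y * s * y⁻¹) := by rw [hy2, mul_one]
  rw [h1]
  exact T.mul_mem hs (data_conj_mem D hyH hs)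

/-- an element of `H` of order dividing `3` lies in `T` -/
theorem data_mem_T_of_cube (D : Data H T a b c w w') {h : G} (hh : h ∈ H) (h3 : h ^ 3 = 1) :
    h ∈ T := by
  have h1 : h = h * h * (h * h) := by
    calc h = h ^ 3 * h := by rw [h3, one_mul]
      _ = h * h * (h * h) := by
        rw [pow_succ, pow_two]
        simp only [mul_assoc]
  rw [h1]
  exact T.mul_mem (data_sq_mem D hh) (data_sq_mem D hh)

end data

end Cfsg.Agent.Lib.Helper62.S3701
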