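import Mathlib
import Cfsg.Agent.Lib.Helper70.S3701.Defs
import Cfsg.Agent.Lib.Helper62.S3701.Basic

set_option autoImplicit false

/-!
# S3701 package SETUP: normal forms, orders, independence

From the generators `a, b, c, u, v` of `H` and a subgroup `T ≤ H` of order `27`:
`T = {a ^ i * b ^ j * c ^ k}`, `H = T ⋊ ⟨u, v⟩` of order `108`.
-/

universe u

namespace Cfsg.Agent.Lib.Helper62.S3701

open Cfsg.Agent.Lib.Helper70.S3701

section

variable {G : Type u} [Group G]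

theorem pow_eq_one_of_three_dvd {a : G} (ha : a ^ 3 = 1) {n : ℕ} (h : 3 ∣ n) : a ^ n = 1 := by
  obtain ⟨m, rfl⟩ := h
  rw [pow_mul, ha, one_pow]

/-- the subgroup `{a ^ i * b ^ j * c ^ k}` generated by three commuting elements of order `3` -/
def gensX (a b c : G) (hab : a * b = b * a) (hac : a * c = c * a) (hbc : b * c = c * b)
    (ha : a ^ 3 = 1) (hb : b ^ 3 = 1) (hc : c ^ 3 = 1) : Subgroup G where
  carrier := {x | ∃ i j k : ℕ, x = a ^ i * b ^ j * c ^ k}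
  mul_mem' := by
    rintro x y ⟨i, j, k, rfl⟩ ⟨i', j', k', rfl⟩
    exact ⟨i + i', j + j', k + k', abc_mul hab hac hbc i j k i' j' k'⟩
  one_mem' := ⟨0, 0, 0, by rw [pow_zero, pow_zero, pow_zero, mul_one, mul_one]⟩
  inv_mem' := by
    rintro x ⟨i, j, k, rfl⟩
    refine ⟨i + i, j + j, k + k, ?_⟩
    apply inv_eq_of_mul_eq_one_right
    rw [abc_mul hab hac hbc,
      pow_eq_one_of_three_dvd ha (show 3 ∣ i + (i + i) from ⟨i, by ring⟩),
      pow_eq_one_of_three_dvd hb (show 3 ∣ j + (j + j) from ⟨j, by ring⟩),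
      pow_eq_one_of_three_dvd hc (show 3 ∣ k + (k + k) from ⟨k, by ring⟩), one_mul, one_mul]

end

theorem pkgSetup : PkgSetup.{u} := by
  intro G _ _ H T a b c u v hg hTH hT hN hC
  classical
  have hab := hg.ab
  have hac := hg.ac
  have hbc := hg.bc
  have ha3 := hg.a3
  have hb3 := hg.b3
  have hc3 := hg.c3
  obtain ⟨X, hXdef⟩ : ∃ X : Subgroup G, X = gensX a b c hab hac hbc ha3 hb3 hc3 := ⟨_, rfl⟩
  have hXmem : ∀ x, x ∈ X ↔ ∃ i j k : ℕ, x = a ^ i * b ^ j * c ^ k := by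
    intro x
    rw [hXdef]
    rfl
  have haX : a ∈ X :=
    (hXmem a).mpr ⟨1, 0, 0, by rw [pow_one, pow_zero, pow_zero, mul_one, mul_one]⟩
  have hbX : b ∈ X :=
    (hXmem b).mpr ⟨0, 1, 0, by rw [pow_one, pow_zero, pow_zero, mul_one, one_mul]⟩
  have hcX : c ∈ X :=
    (hXmem c).mpr ⟨0, 0, 1, by rw [pow_one, pow_zero, pow_zero, one_mul, one_mul]⟩
  have hXH : X ≤ H := by
    intro x hx
    obtain ⟨i, j, k, rfl⟩ := (hXmem x).mp hx
    exact H.mul_mem (H.mul_mem (H.pow_mem hg.haH i) (H.pow_mem hg.hbH j)) (H.pow_mem hg.hcH k)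
  -- the elements of `X` commute with `a` and `b`
  have hXa : ∀ x ∈ X, x * a = a * x := by
    intro x hx
    obtain ⟨i, j, k, rfl⟩ := (hXmem x).mp hx
    have h1 := abc_mul hab hac hbc i j k 1 0 0
    have h2 := abc_mul hab hac hbc 1 0 0 i j k
    simp only [pow_one, pow_zero, mul_one, add_zero, zero_add] at h1 h2
    rw [h1, h2, add_comm]
  have hXb : ∀ x ∈ X, x * b = b * x := by
    intro x hx
    obtain ⟨i, j, k, rfl⟩ := (hXmem x).mp hx
    have h1 := abc_mul hab hac hbc i j k 0 1 0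
    have h2 := abc_mul hab hac hbc 0 1 0 i j k
    simp only [pow_one, pow_zero, mul_one, one_mul, add_zero, zero_add] at h1 h2
    rw [h1, h2, add_comm]
  -- conjugation by `u` and `v` preserves `X`
  have hconjX : ∀ g : G, g * a * g⁻¹ ∈ X → g * b * g⁻¹ ∈ X → g * c * g⁻¹ ∈ X →
      ∀ x ∈ X, g * x * g⁻¹ ∈ X := by
    intro g h1 h2 h3 x hx
    obtain ⟨i, j, k, rfl⟩ := (hXmem x).mp hx
    rw [conj_abc]
    exact X.mul_mem (X.mul_mem (X.pow_mem h1 i) (X.pow_mem h2 j)) (X.pow_mem h3 k)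
  have huX : ∀ x ∈ X, u * x * u⁻¹ ∈ X :=
    hconjX u (by rw [hg.ua]; exact X.inv_mem haX) (by rw [hg.ub]; exact X.inv_mem hbX)
      (by rw [hg.uc]; exact hcX)
  have hvX : ∀ x ∈ X, v * x * v⁻¹ ∈ X :=
    hconjX v (by rw [hg.va]; exact X.inv_mem haX) (by rw [hg.vb]; exact hbX)
      (by rw [hg.vc]; exact X.inv_mem hcX)
  have huN : u ∈ Subgroup.normalizer (X : Set G) := mem_normalizer_of_conj_mem X u huX
  have hvN : v ∈ Subgroup.normalizer (X : Set G) := mem_normalizer_of_conj_mem X v hvX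
  have hyN : ∀ e f : ℕ, ∀ x ∈ X, (u ^ e * v ^ f) * x * (u ^ e * v ^ f)⁻¹ ∈ X := by
    intro e f x hx
    have h1 : u ^ e * v ^ f ∈ Subgroup.normalizer (X : Set G) :=
      Subgroup.mul_mem _ (Subgroup.pow_mem _ huN e) (Subgroup.pow_mem _ hvN f)
    exact (Subgroup.mem_normalizer_iff.mp h1 x).mp hx
  have hu2 : u ^ 2 = 1 := by
    rw [pow_two]
    exact hg.u2
  have hv2 : v ^ 2 = 1 := by
    rw [pow_two]
    exact hg.v2
  have hysq : ∀ e f : ℕ, u ^ e * v ^ f * (u ^ e * v ^ f) = 1 := by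
    intro e f
    rw [uv_mul hg.uv, ← two_mul, ← two_mul, pow_mul, pow_mul, hu2, hv2, one_pow, one_pow,
      one_mul]
  -- normal form of the elements of `H`
  have hnf' : ∀ h ∈ Subgroup.closure ({a, b, c, u, v} : Set G),
      ∃ x ∈ X, ∃ e f : ℕ, h = x * (u ^ e * v ^ f) := by
    intro h hcl
    induction hcl using Subgroup.closure_induction with
    | mem g hgm =>
      simp only [Set.mem_insert_iff, Set.mem_singleton_iff] at hgm
      rcases hgm with h | h | h | h | h <;> rw [h]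
      · exact ⟨a, haX, 0, 0, by rw [pow_zero, pow_zero, mul_one, mul_one]⟩
      · exact ⟨b, hbX, 0, 0, by rw [pow_zero, pow_zero, mul_one, mul_one]⟩
      · exact ⟨c, hcX, 0, 0, by rw [pow_zero, pow_zero, mul_one, mul_one]⟩
      · exact ⟨1, X.one_mem, 1, 0, by rw [pow_one, pow_zero, mul_one, one_mul]⟩
      · exact ⟨1, X.one_mem, 0, 1, by rw [pow_zero, pow_one, one_mul, one_mul]⟩
    | one => exact ⟨1, X.one_mem, 0, 0, by rw [pow_zero, pow_zero, mul_one, mul_one]⟩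
    | mul g₁ g₂ _ _ ih₁ ih₂ =>
      obtain ⟨x, hx, e, f, rfl⟩ := ih₁
      obtain ⟨x', hx', e', f', rfl⟩ := ih₂
      refine ⟨x * ((u ^ e * v ^ f) * x' * (u ^ e * v ^ f)⁻¹),
        X.mul_mem hx (hyN e f x' hx'), e + e', f + f', ?_⟩
      rw [← uv_mul hg.uv]
      obtain ⟨y, hy⟩ : ∃ y, y = u ^ e * v ^ f := ⟨_, rfl⟩
      obtain ⟨y', hy'⟩ : ∃ y', y' = u ^ e' * v ^ f' := ⟨_, rfl⟩
      rw [← hy, ← hy']
      simp only [mul_assoc, inv_mul_cancel_left]
    | inv g _ ih =>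
      obtain ⟨x, hx, e, f, rfl⟩ := ih
      refine ⟨(u ^ e * v ^ f) * x⁻¹ * (u ^ e * v ^ f)⁻¹, hyN e f x⁻¹ (X.inv_mem hx), e, f, ?_⟩
      have hy2 := hysq e f
      obtain ⟨y, hy⟩ : ∃ y, y = u ^ e * v ^ f := ⟨_, rfl⟩
      rw [← hy] at hy2 ⊢
      have hyinv : y⁻¹ = y := inv_eq_of_mul_eq_one_right hy2
      rw [mul_inv_rev, inv_mul_cancel_right, hyinv]
  -- squares lie in `X`
  have hsqX : ∀ h ∈ H, h * h ∈ X := by
    intro h hh
    obtain ⟨x, hx, e, f, rfl⟩ := hnf' h (hg.gen h hh)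
    have hy2 := hysq e f
    have hyx := hyN e f x hx
    obtain ⟨y, hy⟩ : ∃ y, y = u ^ e * v ^ f := ⟨_, rfl⟩
    rw [← hy] at hy2 hyx ⊢
    have h1 : x * y * (x * y) = x * (y * x * y⁻¹) := by
      calc x * y * (x * y) = x * (y * x * y⁻¹) * (y * y) := by
            simp only [mul_assoc, inv_mul_cancel_left]
        _ = x * (y * x * y⁻¹) := by rw [hy2, mul_one]
    rw [h1]
    exact X.mul_mem hx hyx
  -- `T ≤ X`
  have hTX : T ≤ X := by
    intro t ht
    have h27 : t ^ 27 = 1 := by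
      have h1 : (⟨t, ht⟩ : ↥T) ^ Nat.card ↥T = 1 := pow_card_eq_one'
      rw [hT] at h1
      have h2 := congrArg Subtype.val h1
      rw [Subgroup.coe_pow, Subgroup.coe_one] at h2
      exact h2
    have h2 : t = (t * t) ^ 14 := by
      rw [← pow_two, ← pow_mul, show 2 * 14 = 27 + 1 from rfl, pow_succ, h27, one_mul]
    rw [h2]
    exact X.pow_mem (hsqX t (hTH ht)) 14
  -- the parametrisation of `X`
  obtain ⟨ψ, hψdef⟩ : ∃ ψ : Fin 3 × Fin 3 × Fin 3 → ↥X,
      ψ = fun p => ⟨a ^ (p.1 : ℕ) * b ^ (p.2.1 : ℕ) * c ^ (p.2.2 : ℕ),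
        (hXmem _).mpr ⟨_, _, _, rfl⟩⟩ := ⟨_, rfl⟩
  have hψval : ∀ i j k : ℕ, ((ψ (⟨i % 3, Nat.mod_lt _ (by norm_num)⟩,
      ⟨j % 3, Nat.mod_lt _ (by norm_num)⟩, ⟨k % 3, Nat.mod_lt _ (by norm_num)⟩) : ↥X) : G) =
      a ^ i * b ^ j * c ^ k := by
    intro i j k
    rw [hψdef]
    show a ^ (i % 3) * b ^ (j % 3) * c ^ (k % 3) = a ^ i * b ^ j * c ^ k
    rw [← pow_eq_pow_mod i ha3, ← pow_eq_pow_mod j hb3, ← pow_eq_pow_mod k hc3]
  have hsurj : Function.Surjective ψ := by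
    rintro ⟨x, hx⟩
    obtain ⟨i, j, k, rfl⟩ := (hXmem x).mp hx
    exact ⟨_, Subtype.ext (hψval i j k)⟩
  have h27 : Nat.card (Fin 3 × Fin 3 × Fin 3) = 27 := by
    rw [Nat.card_eq_fintype_card]
    rfl
  have hXcard : Nat.card ↥X ≤ 27 := by
    have h1 := Nat.card_le_card_of_surjective ψ hsurj
    omega
  have hXT : T = X := Subgroup.eq_of_le_of_card_ge hTX (by rw [hT]; exact hXcard)
  have hXcard' : Nat.card ↥X = 27 := by
    rw [← hXT]
    exact hT
  have hψinj : Function.Injective ψ :=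
    ((Nat.bijective_iff_surjective_and_card ψ).mpr ⟨hsurj, by rw [hXcard', h27]⟩).1
  have hindep : ∀ i j k : ℕ, a ^ i * b ^ j * c ^ k = 1 → 3 ∣ i ∧ 3 ∣ j ∧ 3 ∣ k := by
    intro i j k h
    have h0 := hψval 0 0 0
    rw [pow_zero, pow_zero, pow_zero, mul_one, mul_one] at h0
    have h1 : ψ (⟨i % 3, Nat.mod_lt _ (by norm_num)⟩, ⟨j % 3, Nat.mod_lt _ (by norm_num)⟩,
        ⟨k % 3, Nat.mod_lt _ (by norm_num)⟩) =
        ψ (⟨0 % 3, Nat.mod_lt _ (by norm_num)⟩, ⟨0 % 3, Nat.mod_lt _ (by norm_num)⟩,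
          ⟨0 % 3, Nat.mod_lt _ (by norm_num)⟩) := by
      apply Subtype.ext
      rw [hψval i j k, h0, h]
    have h2 := hψinj h1
    have hi : i % 3 = 0 := congrArg (fun p : Fin 3 × Fin 3 × Fin 3 => (p.1 : ℕ)) h2
    have hj : j % 3 = 0 := congrArg (fun p : Fin 3 × Fin 3 × Fin 3 => (p.2.1 : ℕ)) h2
    have hk : k % 3 = 0 := congrArg (fun p : Fin 3 × Fin 3 × Fin 3 => (p.2.2 : ℕ)) h2
    exact ⟨Nat.dvd_of_mod_eq_zero hi, Nat.dvd_of_mod_eq_zero hj, Nat.dvd_of_mod_eq_zero hk⟩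
  -- `u`, `v`, `u * v` are not in `X`
  have hne_a : a⁻¹ ≠ a := ne_inv_of_cube ha3 hg.a1
  have hne_b : b⁻¹ ≠ b := ne_inv_of_cube hb3 hg.b1
  have huX' : u ∉ X := by
    intro hu
    apply hne_a
    rw [← hg.ua, hXa u hu, mul_inv_cancel_right]
  have hvX' : v ∉ X := by
    intro hv
    apply hne_a
    rw [← hg.va, hXa v hv, mul_inv_cancel_right]
  have huvb : (u * v) * b * (u * v)⁻¹ = b⁻¹ := by
    rw [mul_inv_rev]
    calc u * v * b * (v⁻¹ * u⁻¹) = u * (v * b * v⁻¹) * u⁻¹ := by simp only [mul_assoc]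
      _ = b⁻¹ := by rw [hg.vb, hg.ub]
  have huva : (u * v) * a * (u * v)⁻¹ = a := by
    rw [mul_inv_rev]
    calc u * v * a * (v⁻¹ * u⁻¹) = u * (v * a * v⁻¹) * u⁻¹ := by simp only [mul_assoc]
      _ = a := by rw [hg.va, ← conj_inv, hg.ua, inv_inv]
  have huvc : (u * v) * c * (u * v)⁻¹ = c⁻¹ := by
    rw [mul_inv_rev]
    calc u * v * c * (v⁻¹ * u⁻¹) = u * (v * c * v⁻¹) * u⁻¹ := by simp only [mul_assoc]
      _ = c⁻¹ := by rw [hg.vc, ← conj_inv, hg.uc]
  have huvX' : u * v ∉ X := by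
    intro h
    apply hne_b
    rw [← huvb, hXb (u * v) h, mul_inv_cancel_right]
  -- the order of `H`
  have hcardH : Nat.card ↥H = 108 := by
    obtain ⟨F, hFdef⟩ : ∃ F : ↥X × Fin 2 × Fin 2 → ↥H,
        F = fun p => ⟨(p.1 : G) * (u ^ (p.2.1 : ℕ) * v ^ (p.2.2 : ℕ)),
          H.mul_mem (hXH p.1.2) (H.mul_mem (H.pow_mem hg.huH _) (H.pow_mem hg.hvH _))⟩ :=
      ⟨_, rfl⟩
    have hFsurj : Function.Surjective F := by
      rintro ⟨h, hh⟩
      obtain ⟨x, hx, e, f, rfl⟩ := hnf' h (hg.gen h hh)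
      refine ⟨(⟨x, hx⟩, ⟨e % 2, Nat.mod_lt _ (by norm_num)⟩,
        ⟨f % 2, Nat.mod_lt _ (by norm_num)⟩), ?_⟩
      rw [hFdef]
      apply Subtype.ext
      show x * (u ^ (e % 2) * v ^ (f % 2)) = x * (u ^ e * v ^ f)
      rw [← pow_eq_pow_mod e hu2, ← pow_eq_pow_mod f hv2]
    have hFinj : Function.Injective F := by
      rintro ⟨⟨x, hx⟩, e, f⟩ ⟨⟨x', hx'⟩, e', f'⟩ hFF
      rw [hFdef] at hFF
      have h1 : x * (u ^ (e : ℕ) * v ^ (f : ℕ)) = x' * (u ^ (e' : ℕ) * v ^ (f' : ℕ)) :=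
        congrArg Subtype.val hFF
      have h2 : u ^ ((e : ℕ) + e') * v ^ ((f : ℕ) + f') ∈ X := by
        rw [← uv_mul hg.uv]
        have h3 : u ^ (e : ℕ) * v ^ (f : ℕ) = x⁻¹ * x' * (u ^ (e' : ℕ) * v ^ (f' : ℕ)) := by
          rw [mul_assoc, ← h1, inv_mul_cancel_left]
        rw [h3, mul_assoc, hysq, mul_one]
        exact X.mul_mem (X.inv_mem hx) hx'
      have he2 : ((e : ℕ) + e') % 2 = 0 ∧ ((f : ℕ) + f') % 2 = 0 := by
        rw [pow_eq_pow_mod ((e : ℕ) + e') hu2, pow_eq_pow_mod ((f : ℕ) + f') hv2] at h2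
        rcases Nat.mod_two_eq_zero_or_one ((e : ℕ) + e') with hm | hm <;>
          rcases Nat.mod_two_eq_zero_or_one ((f : ℕ) + f') with hn | hn
        · exact ⟨hm, hn⟩
        · exfalso
          rw [hm, hn, pow_zero, pow_one, one_mul] at h2
          exact hvX' h2
        · exfalso
          rw [hm, hn, pow_one, pow_zero, mul_one] at h2
          exact huX' h2
        · exfalso
          rw [hm, hn, pow_one, pow_one] at h2
          exact huvX' h2
      have hee : e = e' := by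
        apply Fin.ext
        have h4 := e.2
        have h5 := e'.2
        omega
      have hff : f = f' := by
        apply Fin.ext
        have h4 := f.2
        have h5 := f'.2
        omega
      subst hee hff
      have hxx : x = x' := mul_right_cancel h1
      subst hxx
      rfl
    have h1 := Nat.card_congr (Equiv.ofBijective F ⟨hFinj, hFsurj⟩)
    rw [← h1, Nat.card_prod, Nat.card_prod, hXcard', Nat.card_eq_fintype_card, Fintype.card_fin]
  -- `u ^ e * v ^ f` in terms of `u * v` and `v`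
  have key : ∀ e f : ℕ, (u * v) ^ e * v ^ (e + f) = u ^ e * v ^ f := by
    intro e f
    have hc : Commute u v := hg.uv
    rw [hc.mul_pow, mul_assoc, ← pow_add, ← add_assoc, ← two_mul, pow_add, pow_mul, hv2,
      one_pow, one_mul]
  rw [hXT] at hN hC
  rw [hXT]
  exact
    { haT := haX
      hbT := hbX
      hcT := hcX
      hwH := H.mul_mem hg.huH hg.hvH
      hw'H := hg.hvH
      hTH := hXH
      a3 := ha3
      b3 := hb3
      c3 := hc3
      ab := hab
      ac := hac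
      bc := hbc
      w2 := by
        have h := hysq 1 1
        rw [pow_one, pow_one] at h
        exact h
      w'2 := hg.v2
      ww' := by rw [hg.uv, mul_assoc, hg.uv]
      wa := huva
      wb := huvb
      wc := huvc
      w'a := hg.va
      w'b := hg.vb
      w'c := hg.vc
      T_eq := fun t ht => (hXmem t).mp ht
      H_eq := by
        intro h hh
        obtain ⟨x, hx, e, f, rfl⟩ := hnf' h (hg.gen h hh)
        exact ⟨x, hx, e, e + f, by rw [mul_assoc, key]⟩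
      cardT := hXcard'
      cardH := hcardH
      indep := hindep
      hN := hN
      hC := hC }

end Cfsg.Agent.Lib.Helper62.S3701
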