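import Mathlib
import Cfsg.Agent.Lib.Helper70.S3701.Defs
import Cfsg.Agent.Lib.Helper62.S3701.Basic

set_option autoImplicit false

/-!
# S3701 package TI: a conjugation moving an element of `T^#` into `H` lies in `H`
-/

universe u

namespace Cfsg.Agent.Lib.Helper62.S3701

open Cfsg.Agent.Lib.Helper70.S3701

theorem pkgTI : PkgTI.{u} := by
  intro G _ _ H T a b c w w' D g t ht ht1 hgt
  have ht3 := data_T_cube D ht
  have hc3 : ∀ s : G, s ^ 3 = 1 → (g * s * g⁻¹) ^ 3 = 1 := by
    intro s hs
    rw [conj_pow, hs, mul_one, mul_inv_cancel]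
  have ht'T : g * t * g⁻¹ ∈ T := data_mem_T_of_cube D hgt (hc3 t ht3)
  have ht'1 : g * t * g⁻¹ ≠ 1 := by
    intro h
    apply ht1
    have h2 : g * t * g⁻¹ = g * 1 * g⁻¹ := by rw [h, mul_one, mul_inv_cancel]
    exact mul_left_cancel (mul_right_cancel h2)
  have hcent := D.hC _ ht'T ht'1
  have hall : ∀ s ∈ T, g * s * g⁻¹ ∈ T := by
    intro s hs
    have hsH : g * s * g⁻¹ ∈ H := by
      apply hcent
      rw [Subgroup.mem_centralizer_iff]
      intro x hx
      rw [Set.mem_singleton_iff] at hx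
      rw [hx]
      have hst := data_T_comm D ht hs
      calc g * t * g⁻¹ * (g * s * g⁻¹) = g * (t * s) * g⁻¹ := by
            simp only [mul_assoc, inv_mul_cancel_left]
        _ = g * (s * t) * g⁻¹ := by rw [hst]
        _ = g * s * g⁻¹ * (g * t * g⁻¹) := by
            simp only [mul_assoc, inv_mul_cancel_left]
    exact data_mem_T_of_cube D hsH (hc3 s (data_T_cube D hs))
  have hgN := mem_normalizer_of_conj_mem T g hall
  rw [D.hN] at hgN
  exact hgN

end Cfsg.Agent.Lib.Helper62.S3701
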